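import Cfsg.Agent.R2.T1.N6D.Data

/-!
# S5929, `n = 6`, `p = 2`: the arithmetic of the last step (helper26)

* `Ok n A B D q₁ q₂ u` : the relations between the dimensions attached to a module of `A₆` in characteristic 2;
* `rows` : the possible data of the module of degree 56;
* `fin3`, `fin7` : its decompositions.
-/

set_option autoImplicit false
set_option maxHeartbeats 400000

namespace Cfsg.Agent.R2.T1.N6T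

/-- the relations between the dimensions attached to a module of `A₆` in characteristic 2 -/
structure Ok (n A B D q1 q2 u : ℕ) : Prop where
  sum : D + q1 + q2 = n
  dA : D ≤ A
  dB : D ≤ B
  pA : 2 ∣ n + A
  pB : 2 ∣ n + B
  e3 : 2 * (A + B) = n + 3 * u
  ineq : 4 * (A + B) + 12 * D ≤ 5 * n
  s1 : 2 * q1 ≤ n
  s2 : 2 * q2 ≤ n
  v1 : 2 ∣ q1
  v2 : 2 ∣ q2

/-- the possible data of `V` -/
theorem rows {dA dB d5 m1 m2 u : ℕ} (hA : dA ∈ [2, 14, 20, 32]) (hB : dB ∈ [2, 14, 20, 32])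
    (h5 : (d5, m1, m2) ∈ N6D.L5) (h : Ok 56 dA dB d5 (2 * m1) (2 * m2) u) :
    ((d5 = 10 ∧ m1 = 11 ∧ m2 = 12) ∨ (d5 = 10 ∧ m1 = 12 ∧ m2 = 11) ∨ (d5 = 12 ∧ m1 = 10 ∧ m2 = 12) ∨
      (d5 = 12 ∧ m1 = 12 ∧ m2 = 10)) ∧
    ((dA = 14 ∧ dB = 14) ∨ (dA = 14 ∧ dB = 20) ∨ (dA = 20 ∧ dB = 14) ∨ (dA = 20 ∧ dB = 20)) := by
  have s1 := h.s1
  have s2 := h.s2
  have i1 := h.ineq
  have e3 := h.e3
  have a1 := h.dA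
  have a2 := h.dB
  have h5' : (d5 = 10 ∧ m1 = 11 ∧ m2 = 12) ∨ (d5 = 10 ∧ m1 = 12 ∧ m2 = 11) ∨ (d5 = 12 ∧ m1 = 10 ∧ m2 = 12) ∨
      (d5 = 12 ∧ m1 = 12 ∧ m2 = 10) := by
    clear i1 e3 a1 a2 hA hB h
    simp only [N6D.L5, List.mem_cons, List.not_mem_nil, or_false, Prod.mk.injEq] at h5
    omega
  refine ⟨h5', ?_⟩
  have hd : d5 = 10 ∨ d5 = 12 := by
    clear i1 e3 a1 a2 hA hB h s1 s2 h5
    omega
  clear h5 h5' s1 s2 h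
  simp only [List.mem_cons, List.not_mem_nil, or_false] at hA hB
  rcases hA with rfl | rfl | rfl | rfl <;> rcases hB with rfl | rfl | rfl | rfl <;> omega

/-- the equations in terms of the excess -/
theorem Ok.par {n A B D x y u : ℕ} (h : Ok n A B D x y u) : ∃ a b x' y', A = D + 2 * a ∧ B = D + 2 * b ∧ x = 2 * x' ∧
    y = 2 * y' ∧ n = D + 2 * x' + 2 * y' ∧ 4 * D + 4 * a + 4 * b = n + 3 * u ∧ 2 * u + 4 * D ≤ n ∧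
    4 * x' ≤ n ∧ 4 * y' ≤ n := by
  obtain ⟨b1, b2, b3, b4, b5, b6, b7, b8, b9, ⟨x', rfl⟩, ⟨y', rfl⟩⟩ := h
  have h1 : A = D + 2 * ((A - D) / 2) := by clear b5 b6 b7 b8 b9 b3; omega
  have h2 : B = D + 2 * ((B - D) / 2) := by clear b4 b6 b7 b8 b9 b2 h1; omega
  refine ⟨(A - D) / 2, (B - D) / 2, x', y', h1, h2, rfl, rfl, b1.symm, ?_, ?_, ?_, ?_⟩
  · generalize (A - D) / 2 = a at h1
    generalize (B - D) / 2 = b at h2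
    clear b4 b5 b7 b8 b9
    omega
  · clear h1 h2 b4 b5 b8 b9
    omega
  · clear h1 h2 b1 b2 b3 b4 b5 b6 b7 b9
    omega
  · clear h1 h2 b1 b2 b3 b4 b5 b6 b7 b8
    omega

theorem third {k a : ℕ} (h : 3 ∣ k + 2 * a) (hk : 3 ∣ k) : ∃ c, a = 3 * c := by
  obtain ⟨k, rfl⟩ := hk
  exact ⟨a / 3, by omega⟩

theorem third' {a : ℕ} (h : 3 ∣ 2 * a) : ∃ c, a = 3 * c := ⟨a / 3, by omega⟩

theorem zero3 {w a b dA dB d5 u : ℕ} (r1 : d5 = 10 ∨ d5 = 12)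
    (r2 : (dA = 14 ∧ dB = 14 ∧ u = 0) ∨ (dA = 14 ∧ dB = 20 ∧ u = 4) ∨ (dA = 20 ∧ dB = 14 ∧ u = 4) ∨
      (dA = 20 ∧ dB = 20 ∧ u = 8))
    (k1 : d5 + 6 * a ≤ dA) (k2 : d5 + 6 * b ≤ dB) (f1 : 5 * w ≤ 4 * (a + b))
    (f2 : 4 * d5 + 2 * u + 12 * (a + b) ≤ 56 + 15 * w) (k4 : 3 * w ≤ u) : a = 0 ∧ b = 0 ∧ w = 0 := by
  have ha : a ≤ 1 := by clear f1 f2 k4 k2; omega
  have hb : b ≤ 1 := by clear f1 f2 k4 k1; omega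
  have hw : w ≤ 2 := by clear f1 f2 k1 k2; omega
  rcases r1 with rfl | rfl <;> rcases r2 with ⟨rfl, rfl, rfl⟩ | ⟨rfl, rfl, rfl⟩ | ⟨rfl, rfl, rfl⟩ | ⟨rfl, rfl, rfl⟩ <;>
    interval_cases w <;> interval_cases a <;> interval_cases b <;> simp_all

theorem end3 {d5 m1 m2 : ℕ}
    (r1 : (d5 = 10 ∧ m1 = 11 ∧ m2 = 12) ∨ (d5 = 10 ∧ m1 = 12 ∧ m2 = 11) ∨ (d5 = 12 ∧ m1 = 10 ∧ m2 = 12) ∨
      (d5 = 12 ∧ m1 = 12 ∧ m2 = 10)) {D x y : ℕ} (e1 : 4 * D = D + 2 * x + 2 * y)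
    (k5 : 4 * m1 + 12 * D ≤ 56 + 12 * x) (k6 : 4 * m2 + 12 * D ≤ 56 + 12 * y) (k7 : 3 * D ≤ d5) : D ≤ 2 := by
  have h : D ≤ 4 := by omega
  interval_cases D <;> omega

/-- the decomposition of the module of degree 56, parametrised -/
theorem main3 {dA dB d5 m1 m2 u : ℕ}
    (r1 : (d5 = 10 ∧ m1 = 11 ∧ m2 = 12) ∨ (d5 = 10 ∧ m1 = 12 ∧ m2 = 11) ∨ (d5 = 12 ∧ m1 = 10 ∧ m2 = 12) ∨
      (d5 = 12 ∧ m1 = 12 ∧ m2 = 10))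
    (r2 : (dA = 14 ∧ dB = 14 ∧ u = 0) ∨ (dA = 14 ∧ dB = 20 ∧ u = 4) ∨ (dA = 20 ∧ dB = 14 ∧ u = 4) ∨
      (dA = 20 ∧ dB = 20 ∧ u = 8))
    {n D w a b x y n' D' w' a' b' x' y' : ℕ}
    (p1 : n = D + 2 * x + 2 * y) (p2 : 4 * D + 4 * a + 4 * b = n + 3 * w) (p3 : 2 * w + 4 * D ≤ n)
    (q3 : 2 * w' + 4 * D' ≤ n')
    (q4 : 4 * x' ≤ n') (q5 : 4 * y' ≤ n') (sn : 56 = 3 * n + n') (sA : dA = 3 * D + 6 * a + (D' + 2 * a'))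
    (sB : dB = 3 * D + 6 * b + (D' + 2 * b')) (sD : d5 = 3 * D + D') (sx : m1 = 3 * x + x') (sy : m2 = 3 * y + y')
    (su : u = 3 * w + w') : n ≤ 8 := by
  have k1 : d5 + 6 * a ≤ dA := by
    clear r1 r2 sn sB sx sy su q3 q4 q5 p1 p2 p3
    omega
  have k2 : d5 + 6 * b ≤ dB := by
    clear r1 r2 sn sA sx sy su q3 q4 q5 p1 p2 p3 k1
    omega
  have k4 : 3 * w ≤ u := by rw [su]; exact Nat.le_add_right _ _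
  have f1 : 5 * w ≤ 4 * (a + b) := by
    clear r1 r2 sn sA sB sD sx sy su q3 q4 q5 p1 k1 k2 k4
    omega
  have f2 : 4 * d5 + 2 * u + 12 * (a + b) ≤ 56 + 15 * w := by
    rw [sD, su]
    clear r1 r2 sA sB sD sx sy su q4 q5 p1 k1 k2 k4 f1
    omega
  obtain ⟨rfl, rfl, rfl⟩ := zero3 (by omega) r2 k1 k2 f1 f2 k4
  have hn : n = 4 * D := by
    clear r1 r2 sn sA sB sD sx sy su q3 q4 q5 p1 k1 k2 k4 f1 f2 p3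
    omega
  subst hn
  have e1 : 4 * m1 + 12 * D ≤ 56 + 12 * x := by
    rw [sx]
    clear r1 r2 sA sB sD sx sy su q3 q5 p1 k1 k2 k4 f1 f2 p3 p2
    omega
  have e2 : 4 * m2 + 12 * D ≤ 56 + 12 * y := by
    rw [sy]
    clear r1 r2 sA sB sD sx sy su q3 q4 p1 k1 k2 k4 f1 f2 p3 p2 e1
    omega
  have := end3 r1 p1 e1 e2 (by rw [sD]; exact Nat.le_add_right _ _)
  clear r1 r2 sn sA sB sD sx sy su q3 q4 q5 p1 k1 k2 k4 f1 f2 p3 p2 e1 e2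
  omega

/-- the possible data of `V` -/
theorem rowsU {dA dB u : ℕ} (r2 : (dA = 14 ∧ dB = 14) ∨ (dA = 14 ∧ dB = 20) ∨ (dA = 20 ∧ dB = 14) ∨ (dA = 20 ∧ dB = 20))
    (e : 2 * (dA + dB) = 56 + 3 * u) : (dA = 14 ∧ dB = 14 ∧ u = 0) ∨ (dA = 14 ∧ dB = 20 ∧ u = 4) ∨
      (dA = 20 ∧ dB = 14 ∧ u = 4) ∨ (dA = 20 ∧ dB = 20 ∧ u = 8) := by
  rcases r2 with ⟨rfl, rfl⟩ | ⟨rfl, rfl⟩ | ⟨rfl, rfl⟩ | ⟨rfl, rfl⟩ <;> omega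

theorem fin3 {dA dB d5 m1 m2 u : ℕ}
    (r1 : (d5 = 10 ∧ m1 = 11 ∧ m2 = 12) ∨ (d5 = 10 ∧ m1 = 12 ∧ m2 = 11) ∨ (d5 = 12 ∧ m1 = 10 ∧ m2 = 12) ∨
      (d5 = 12 ∧ m1 = 12 ∧ m2 = 10))
    (r2 : (dA = 14 ∧ dB = 14) ∨ (dA = 14 ∧ dB = 20) ∨ (dA = 20 ∧ dB = 14) ∨ (dA = 20 ∧ dB = 20))
    (h : Ok 56 dA dB d5 (2 * m1) (2 * m2) u)
    {n1 A1 B1 D1 x1 y1 u1 n2 A2 B2 D2 x2 y2 u2 : ℕ} (h1 : Ok n1 A1 B1 D1 x1 y1 u1) (h2 : Ok n2 A2 B2 D2 x2 y2 u2)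
    (sn : 56 = n1 + n2) (sA : dA = A1 + A2) (sB : dB = B1 + B2) (sD : d5 = D1 + D2) (sx : 2 * m1 = x1 + x2)
    (sy : 2 * m2 = y1 + y2) (su : u = u1 + u2) (tn : 3 ∣ n1) (tA : 3 ∣ A1) (tB : 3 ∣ B1) (tD : 3 ∣ D1) (tx : 3 ∣ x1)
    (ty : 3 ∣ y1) (tu : 3 ∣ u1) : n1 ≤ 24 := by
  have r2' := rowsU r2 h.e3
  obtain ⟨a, b, x, y, rfl, rfl, rfl, rfl, p1, p2, p3, p4, p5⟩ := h1.par
  obtain ⟨a', b', x', y', rfl, rfl, rfl, rfl, q1, q2, q3, q4, q5⟩ := h2.par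
  obtain ⟨a, rfl⟩ := third tA tD
  obtain ⟨b, rfl⟩ := third tB tD
  obtain ⟨x, rfl⟩ := third' tx
  obtain ⟨y, rfl⟩ := third' ty
  obtain ⟨D, rfl⟩ := tD
  obtain ⟨n, rfl⟩ := tn
  obtain ⟨w, rfl⟩ := tu
  clear h h1 h2 tA tB tx ty p4 p5 q1 q2 r2
  have sx' : m1 = 3 * x + x' := by
    clear sn sA sB sD sy su p1 p2 p3 q3 q4 q5 r1 r2'
    omega
  have sy' : m2 = 3 * y + y' := by
    clear sn sA sB sD sx su p1 p2 p3 q3 q4 q5 r1 r2' sx'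
    omega
  have p1' : n = D + 2 * x + 2 * y := by
    clear sn sA sB sD sx sy su p2 p3 q3 q4 q5 r1 r2' sx' sy'
    omega
  have p2' : 4 * D + 4 * a + 4 * b = n + 3 * w := by
    clear sn sA sB sD sx sy su p1 p3 q3 q4 q5 r1 r2' sx' sy' p1'
    omega
  have p3' : 2 * w + 4 * D ≤ n := by
    clear sn sA sB sD sx sy su p1 p2 q3 q4 q5 r1 r2' sx' sy' p1' p2'
    omega
  have sA' : dA = 3 * D + 6 * a + (D2 + 2 * a') := by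
    rw [sA]
    clear sn sA sB sD sx sy su p1 p2 p3 q3 q4 q5 r1 r2' sx' sy' p1' p2' p3'
    omega
  have sB' : dB = 3 * D + 6 * b + (D2 + 2 * b') := by
    rw [sB]
    clear sn sA sB sD sx sy su p1 p2 p3 q3 q4 q5 r1 r2' sx' sy' p1' p2' p3' sA'
    omega
  have := main3 r1 r2' p1' p2' p3' q3 q4 q5 sn sA' sB' sD sx' sy' su
  omega

theorem sev {k a : ℕ} (h : 7 ∣ k + 2 * a) (hk : 7 ∣ k) : ∃ c, a = 7 * c := by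
  obtain ⟨k, rfl⟩ := hk
  exact ⟨a / 7, by omega⟩

theorem sev' {a : ℕ} (h : 7 ∣ 2 * a) : ∃ c, a = 7 * c := ⟨a / 7, by omega⟩

theorem fin7 {dA dB d5 m1 m2 : ℕ}
    (r1 : (d5 = 10 ∧ m1 = 11 ∧ m2 = 12) ∨ (d5 = 10 ∧ m1 = 12 ∧ m2 = 11) ∨ (d5 = 12 ∧ m1 = 10 ∧ m2 = 12) ∨
      (d5 = 12 ∧ m1 = 12 ∧ m2 = 10))
    (r2 : (dA = 14 ∧ dB = 14) ∨ (dA = 14 ∧ dB = 20) ∨ (dA = 20 ∧ dB = 14) ∨ (dA = 20 ∧ dB = 20))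
    {n1 A1 B1 D1 x1 y1 u1 n2 A2 B2 D2 x2 y2 u2 : ℕ} (h1 : Ok n1 A1 B1 D1 x1 y1 u1) (h2 : Ok n2 A2 B2 D2 x2 y2 u2)
    (sA : dA = A1 + A2) (sB : dB = B1 + B2) (sD : d5 = D1 + D2) (tn : 7 ∣ n1) (tA : 7 ∣ A1) (tB : 7 ∣ B1)
    (tD : 7 ∣ D1) (tx : 7 ∣ x1) (ty : 7 ∣ y1) (tu : 7 ∣ u1) : n1 = 0 := by
  obtain ⟨a, b, x, y, rfl, rfl, rfl, rfl, p1, p2, p3, p4, p5⟩ := h1.par
  obtain ⟨a', b', x', y', rfl, rfl, rfl, rfl, q1, q2, q3, q4, q5⟩ := h2.par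
  obtain ⟨a, rfl⟩ := sev tA tD
  obtain ⟨b, rfl⟩ := sev tB tD
  obtain ⟨x, rfl⟩ := sev' tx
  obtain ⟨y, rfl⟩ := sev' ty
  obtain ⟨D, rfl⟩ := tD
  obtain ⟨n, rfl⟩ := tn
  obtain ⟨w, rfl⟩ := tu
  clear h1 h2 tA tB tx ty p4 p5 q1 q2 q3 q4 q5
  have hd : d5 = 10 ∨ d5 = 12 := by
    clear sA sB sD p1 p2 p3 r2
    omega
  clear r1
  have ha : a = 0 := by
    clear p1 p2 p3 sB
    omega
  have hb : b = 0 := by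
    clear p1 p2 p3 sA ha
    omega
  subst ha hb
  have hw : w = 0 := by
    clear p1 sA sB sD r2 hd
    omega
  subst hw
  have hn : n = 4 * D := by
    clear p1 sA sB sD r2 hd p3
    omega
  subst hn
  have hD : D ≤ 1 := by
    clear p1 p2 p3 sA sB r2
    omega
  clear p2 p3 sA sB sD r2 hd
  interval_cases D <;> omega

end Cfsg.Agent.R2.T1.N6T
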