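import Cfsg.Agent.R2.T1.N6T.Ar
import Cfsg.Agent.R2.T2.Orb.Div
import Cfsg.Agent.R2.T1.Five.Twist

/-!
# S5929, `n = 6`, `p = 2`: decomposition by a commuting endomorphism (helper26)

* `split` : `dim P = dim (P ∩ ker f(T)) + dim (P ∩ ker T)` for stable subspaces `P`;
* `sub_inv`, `sub_dual` : a direct summand has no invariants, no coinvariants;
* `ev_sub`, `qd_sub`, `U_sub` : the dimensions attached to a subrepresentation.
-/

set_option autoImplicit false

namespace Cfsg.Agent.R2.T1.N6T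

open Module Polynomial
open Cfsg.Agent.H952.F4 (ev)
open Cfsg.Agent.R2.T1

universe u v w

section
variable {F : Type u} [Field F] {E : Type v} [AddCommGroup E] [Module F E]

theorem aeval_mem {T : Module.End F E} {P : Submodule F E} (hP : ∀ p ∈ P, T p ∈ P) (q : F[X]) {p : E} (hp : p ∈ P) :
    aeval T q p ∈ P := by
  have hpow : ∀ n : ℕ, (T ^ n) p ∈ P := by
    intro n
    induction n with
    | zero => exact hp
    | succ n ih =>
      rw [pow_succ', Module.End.mul_apply]
      exact hP _ ih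
  induction q using Polynomial.induction_on' with
  | add a b ha hb =>
    rw [map_add, LinearMap.add_apply]
    exact P.add_mem ha hb
  | monomial n a =>
    rw [aeval_monomial, Module.End.mul_apply, Module.algebraMap_end_apply]
    exact P.smul_mem a (hpow n)

theorem aeval_comm' {T S : Module.End F E} (h : ∀ x, S (T x) = T (S x)) (q : F[X]) (x : E) :
    S (aeval T q x) = aeval T q (S x) := Cfsg.Agent.R2.T2.Orb.aeval_comm h q x

theorem coprime_X {f : F[X]} (hf : f.coeff 0 ≠ 0) : IsCoprime (X : F[X]) f := by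
  refine ⟨-(C (f.coeff 0)⁻¹ * f.divX), C (f.coeff 0)⁻¹, ?_⟩
  have h1 : f.divX * X + C (f.coeff 0) = f := Polynomial.divX_mul_X_add f
  have h2 : (C (f.coeff 0)⁻¹ : F[X]) * C (f.coeff 0) = 1 := by
    rw [← C_mul, inv_mul_cancel₀ hf, C_1]
  calc -(C (f.coeff 0)⁻¹ * f.divX) * X + C (f.coeff 0)⁻¹ * f
      = -(C (f.coeff 0)⁻¹ * f.divX) * X + C (f.coeff 0)⁻¹ * (f.divX * X + C (f.coeff 0)) := by rw [h1]
    _ = C (f.coeff 0)⁻¹ * C (f.coeff 0) := by ring
    _ = 1 := h2

/-- the two projections -/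
theorem exists_proj {T : Module.End F E} {f : F[X]} (hf : f.coeff 0 ≠ 0) (hT : aeval T (X * f) = 0) :
    ∃ a b : F[X], (∀ x, aeval T a x + aeval T b x = x) ∧ (∀ x, aeval T f (aeval T a x) = 0) ∧
      (∀ x, T (aeval T b x) = 0) ∧ (∀ x, T x = 0 → aeval T a x = 0) ∧ (∀ x, aeval T f x = 0 → aeval T b x = 0) := by
  obtain ⟨a, b, hab⟩ := coprime_X hf
  have hXf : ∀ x, aeval T f (T x) = 0 := by
    intro x
    have h := LinearMap.congr_fun hT x
    rw [mul_comm, map_mul, aeval_X, Module.End.mul_apply, LinearMap.zero_apply] at h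
    exact h
  have hXf' : ∀ x, T (aeval T f x) = 0 := by
    intro x
    have h := LinearMap.congr_fun hT x
    rw [map_mul, aeval_X, Module.End.mul_apply, LinearMap.zero_apply] at h
    exact h
  have e1 : ∀ x, aeval T (a * X) x = aeval T a (T x) := fun x => by
    rw [map_mul, aeval_X, Module.End.mul_apply]
  have e2 : ∀ x, aeval T (b * f) x = aeval T b (aeval T f x) := fun x => by
    rw [map_mul, Module.End.mul_apply]
  refine ⟨a * X, b * f, ?_, ?_, ?_, ?_, ?_⟩
  · intro x
    rw [← LinearMap.add_apply, ← map_add, hab, map_one, Module.End.one_apply]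
  · intro x
    rw [e1, ← Module.End.mul_apply, ← map_mul, mul_comm f a, map_mul, Module.End.mul_apply, hXf, map_zero]
  · intro x
    rw [e2, aeval_comm' (S := T) (fun x => rfl), hXf', map_zero]
  · intro x hx
    rw [e1, hx, map_zero]
  · intro x hx
    rw [e2, hx, map_zero]

/-- **the decomposition of a stable subspace** -/
theorem split [FiniteDimensional F E] {T : Module.End F E} {f : F[X]} (hf : f.coeff 0 ≠ 0) (hT : aeval T (X * f) = 0)
    {P : Submodule F E} (hP : ∀ p ∈ P, T p ∈ P) :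
    finrank F ↥P = finrank F ↥(P ⊓ LinearMap.ker (aeval T f)) + finrank F ↥(P ⊓ LinearMap.ker T) := by
  obtain ⟨a, b, h1, h2, h3, h4, h5⟩ := exists_proj hf hT
  have hsup : (P ⊓ LinearMap.ker (aeval T f)) ⊔ (P ⊓ LinearMap.ker T) = P := by
    refine le_antisymm (sup_le inf_le_left inf_le_left) ?_
    intro p hp
    rw [← h1 p]
    exact Submodule.add_mem_sup ⟨aeval_mem hP a hp, LinearMap.mem_ker.2 (h2 p)⟩
      ⟨aeval_mem hP b hp, LinearMap.mem_ker.2 (h3 p)⟩
  have hinf : (P ⊓ LinearMap.ker (aeval T f)) ⊓ (P ⊓ LinearMap.ker T) = ⊥ := by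
    rw [eq_bot_iff]
    rintro x ⟨⟨-, hx1⟩, ⟨-, hx2⟩⟩
    rw [Submodule.mem_bot, ← h1 x, h4 x (LinearMap.mem_ker.1 hx2), h5 x (LinearMap.mem_ker.1 hx1), add_zero]
  have h := Submodule.finrank_sup_add_finrank_inf_eq (P ⊓ LinearMap.ker (aeval T f)) (P ⊓ LinearMap.ker T)
  rw [hsup, hinf, finrank_bot, add_zero] at h
  exact h

theorem dvd_part [FiniteDimensional F E] {T : Module.End F E} {f : F[X]} {d : ℕ}
    (hd : ∀ q : F[X], q.Monic → Irreducible q → q ∣ f → d ∣ q.natDegree) {P : Submodule F E} (hP : ∀ p ∈ P, T p ∈ P) :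
    d ∣ finrank F ↥(P ⊓ LinearMap.ker (aeval T f)) := by
  refine Cfsg.Agent.R2.T2.Orb.dvd_sub hd (T := T) ?_ ?_
  · rintro w ⟨hw1, hw2⟩
    refine ⟨hP _ hw1, ?_⟩
    show aeval T f (T w) = 0
    rw [← aeval_comm' (S := T) (fun x => rfl), LinearMap.mem_ker.1 hw2, map_zero]
  · rintro w ⟨-, hw2⟩
    exact LinearMap.mem_ker.1 hw2

end

section
variable {F : Type u} [Field F] {E : Type v} [AddCommGroup E] [Module F E] {G : Type w} [Group G]
  (ρ : Representation F G E) {W : Submodule F E} (hW : ∀ g, W ≤ W.comap (ρ g))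

theorem sub_apply (g : G) (x : ↥W) : ((ρ.subrepresentation W hW g x : ↥W) : E) = ρ g x := rfl

theorem sub_inv (h : ρ.invariants = ⊥) : (ρ.subrepresentation W hW).invariants = ⊥ := by
  rw [eq_bot_iff]
  intro x hx
  rw [Representation.mem_invariants] at hx
  have h1 : (x : E) ∈ ρ.invariants := by
    rw [Representation.mem_invariants]
    intro g
    exact congrArg Subtype.val (hx g)
  rw [h, Submodule.mem_bot] at h1
  exact (Submodule.mem_bot F).2 (Subtype.ext h1)

theorem sub_dual (h : ∀ f : Module.Dual F E, (∀ g m, f (ρ g m) = f m) → f = 0) {π : Module.End F E}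
    (hπ : ∀ x, π x ∈ W) (hπ' : ∀ x ∈ W, π x = x) (hc : ∀ g x, π (ρ g x) = ρ g (π x)) (f : Module.Dual F ↥W)
    (hf : ∀ g m, f (ρ.subrepresentation W hW g m) = f m) : f = 0 := by
  have h1 := h (f ∘ₗ π.codRestrict W hπ) (by
    intro g m
    have h2 := hf g (π.codRestrict W hπ m)
    rw [LinearMap.comp_apply, LinearMap.comp_apply, ← h2]
    congr 1
    exact Subtype.ext (hc g m))
  refine LinearMap.ext fun x => ?_
  have h2 := LinearMap.congr_fun h1 (x : E)
  rw [LinearMap.comp_apply, LinearMap.zero_apply] at h2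
  rw [LinearMap.zero_apply, ← h2]
  congr 1
  exact Subtype.ext (hπ' x x.2).symm

theorem finrank_comap' [FiniteDimensional F E] (Q : Submodule F E) :
    finrank F ↥(Q.comap W.subtype) = finrank F ↥(Q ⊓ W) := by
  have h1 : (Q.comap W.subtype).map W.subtype = Q ⊓ W := by
    rw [Submodule.map_comap_subtype, inf_comm]
  rw [← h1, Submodule.finrank_map_subtype_eq]

theorem ev_sub [FiniteDimensional F E] (g : G) :
    ev (ρ.subrepresentation W hW g) 1 = finrank F ↥(Module.End.eigenspace (ρ g) 1 ⊓ W) := by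
  have h : Module.End.eigenspace (ρ.subrepresentation W hW g) 1 = (Module.End.eigenspace (ρ g) 1).comap W.subtype := by
    ext x
    rw [Submodule.mem_comap, Module.End.mem_eigenspace_iff, Module.End.mem_eigenspace_iff, one_smul, one_smul,
      Subtype.ext_iff, sub_apply, Submodule.subtype_apply]
  rw [ev, ← finrank_comap', h]

theorem qd_sub [FiniteDimensional F E] (t : F) (g : G) :
    finrank F ↥(LinearMap.ker (Five.qd t (ρ.subrepresentation W hW g))) =
      finrank F ↥(LinearMap.ker (Five.qd t (ρ g)) ⊓ W) := by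
  have h : LinearMap.ker (Five.qd t (ρ.subrepresentation W hW g)) =
      (LinearMap.ker (Five.qd t (ρ g))).comap W.subtype := by
    ext x
    rw [Submodule.mem_comap, Five.mem_ker_qd, Five.mem_ker_qd, Subtype.ext_iff]
    rfl
  rw [← finrank_comap', h]

/-- the common fixed space of two elements -/
def U (a a' : G) : Submodule F E := Module.End.eigenspace (ρ a) 1 ⊓ Module.End.eigenspace (ρ a') 1

theorem U_sub [FiniteDimensional F E] (a a' : G) :
    finrank F ↥(U (ρ.subrepresentation W hW) a a') = finrank F ↥(U ρ a a' ⊓ W) := by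
  have h : U (ρ.subrepresentation W hW) a a' = (U ρ a a').comap W.subtype := by
    ext x
    simp only [U, Submodule.mem_comap, Submodule.mem_inf, Module.End.mem_eigenspace_iff, one_smul, Subtype.ext_iff,
      sub_apply, Submodule.subtype_apply]
  rw [← finrank_comap', h]

theorem fix_stable {T : Module.End F E} (hT : ∀ g x, ρ g (T x) = T (ρ g x)) (g : G) :
    ∀ p ∈ Module.End.eigenspace (ρ g) 1, T p ∈ Module.End.eigenspace (ρ g) 1 := by
  intro p hp
  rw [Module.End.mem_eigenspace_iff, one_smul] at hp ⊢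
  rw [hT, hp]

theorem U_stable {T : Module.End F E} (hT : ∀ g x, ρ g (T x) = T (ρ g x)) (a a' : G) :
    ∀ p ∈ U ρ a a', T p ∈ U ρ a a' := by
  rintro p ⟨h1, h2⟩
  exact ⟨fix_stable ρ hT a p h1, fix_stable ρ hT a' p h2⟩

theorem qd_stable {T : Module.End F E} (hT : ∀ g x, ρ g (T x) = T (ρ g x)) (t : F) (g : G) :
    ∀ p ∈ LinearMap.ker (Five.qd t (ρ g)), T p ∈ LinearMap.ker (Five.qd t (ρ g)) := by
  intro p hp
  rw [Five.mem_ker_qd] at hp ⊢
  rw [hT, hT, hp, map_sub, map_smul]

end

end Cfsg.Agent.R2.T1.N6T
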