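import Cfsg.Agent.R2.T1.N6T.Dec
import Cfsg.Agent.R2.T2.Two.Main

/-!
# S5929, `n = 6`, `p = 2`: the last step (helper26)

* `OkAll` : the relations between the dimensions attached to all modules of `A₆` without invariants and coinvariants;
* `last` : the contradiction.
-/

set_option autoImplicit false

namespace Cfsg.Agent.R2.T1.N6T

open Cfsg Cfsg.Lie Module Polynomial
open Cfsg.Agent.H943.E7V.Block (D1 rho)
open Cfsg.Agent.H952.F4 (ev MaxAlt)
open Cfsg.Agent.R2.T1
open Cfsg.Agent.R2.T1.N6D (Ineq Low z5)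

universe u

/-- the relations for all modules -/
def OkAll (F : Type u) [Field F] (a a' b : ↥(alternatingGroup (Fin 6))) : Prop :=
  ∀ τ : F, τ * τ + τ - 1 = 0 → ∀ (M : Type u) [AddCommGroup M] [Module F M] [FiniteDimensional F M]
    (ρ : Representation F ↥(alternatingGroup (Fin 6)) M), ρ.invariants = ⊥ →
    (∀ f : Module.Dual F M, (∀ g m, f (ρ g m) = f m) → f = 0) →
    Ok (finrank F M) (ev (ρ a) 1) (ev (ρ b) 1) (ev (ρ z5) 1) (finrank F ↥(LinearMap.ker (Five.qd τ (ρ z5))))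
      (finrank F ↥(LinearMap.ker (Five.qd (-1 - τ) (ρ z5)))) (finrank F ↥(U ρ a a'))

variable {F : Type u} [Field F] [Finite F] {H : Subgroup ↥(chevE7.group F)}
  {φ : ↥(alternatingGroup (Fin 6)) →* ↥(chevE7.group F)} {ψ : ↥(alternatingGroup (Fin 6)) →* Gh F}

theorem last (hM : MaxAlt H 6 φ) (hψ : Lift φ ψ) (h2 : (2 : F) = 0) {a a' b : ↥(alternatingGroup (Fin 6))}
    (ha : a ^ 3 = 1) (hb : b ^ 3 = 1) (ha1 : a ≠ 1) (hb1 : b ≠ 1) (hI : Ineq F a b z5) (hl : Low F a b)
    (hO : Nat.card F = 4 → OkAll F a a' b) : False := by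
  obtain ⟨hq3, hc, v, hv, hinv⟩ := N6D.exists_fix hM hψ h2 ha hb ha1 hb1 hI hl
  obtain ⟨h4, T, f, d, hd, hcomm, hT0, hf0, hTf, hdeg, hlt⟩ :=
    Cfsg.Agent.R2.T2.Two.no_inv_two hM hψ h2 hq3 hc hv hinv
  obtain ⟨dA, dB, d5, m1, m2, τ, eA, eB, eD, mA, mB, m5, hτ, ex, ey, -, -⟩ :=
    N6D.dataV hM hψ h2 ha hb ha1 hb1 hI hl
  have h0 := no_fixed hM (by norm_num) (by norm_num) hψ
  have hdual := N6D.dualV h0
  set ρ : Representation F ↥(alternatingGroup (Fin 6)) (D1 → F) := MonoidHom.comp (V F) ψ with hρ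
  have hT : ∀ g x, ρ g (T x) = T (ρ g x) := hcomm
  have hO := hO h4 τ hτ
  set N := LinearMap.ker (aeval T f) with hN
  set K := LinearMap.ker T with hK
  have hWN : ∀ g, N ≤ N.comap (ρ g) := by
    intro g x hx
    rw [Submodule.mem_comap, hN, LinearMap.mem_ker, ← aeval_comm' (S := ρ g) (hT g), LinearMap.mem_ker.1 hx, map_zero]
  have hWK : ∀ g, K ≤ K.comap (ρ g) := by
    intro g x hx
    rw [Submodule.mem_comap, hK, LinearMap.mem_ker, ← hT, LinearMap.mem_ker.1 hx, map_zero]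
  obtain ⟨p, q, h1, h3, h5, h6, h7⟩ := exists_proj hf0 hTf
  have hp : ∀ g x, aeval T p (ρ g x) = ρ g (aeval T p x) := fun g x => (aeval_comm' (S := ρ g) (hT g) p x).symm
  have hq : ∀ g x, aeval T q (ρ g x) = ρ g (aeval T q x) := fun g x => (aeval_comm' (S := ρ g) (hT g) q x).symm
  have okV := hO (D1 → F) ρ h0 hdual
  have okN := hO ↥N (ρ.subrepresentation N hWN) (sub_inv ρ hWN h0) (sub_dual ρ hWN hdual (π := aeval T p)
    (fun x => LinearMap.mem_ker.2 (h3 x)) (fun x hx => by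
      have := h1 x
      rw [h7 x (LinearMap.mem_ker.1 hx), add_zero] at this
      exact this) hp)
  have okK := hO ↥K (ρ.subrepresentation K hWK) (sub_inv ρ hWK h0) (sub_dual ρ hWK hdual (π := aeval T q)
    (fun x => LinearMap.mem_ker.2 (h5 x)) (fun x hx => by
      have := h1 x
      rw [h6 x (LinearMap.mem_ker.1 hx), zero_add] at this
      exact this) hq)
  rw [ev_sub, ev_sub, ev_sub, qd_sub, qd_sub, U_sub] at okN okK
  -- the dimensions
  have sn := split hf0 hTf (P := ⊤) (fun _ _ => Submodule.mem_top)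
  rw [top_inf_eq, top_inf_eq, finrank_top, finrank_V, ← hN, ← hK] at sn
  have sA := split hf0 hTf (fix_stable ρ hT a)
  have sB := split hf0 hTf (fix_stable ρ hT b)
  have sD := split hf0 hTf (fix_stable ρ hT z5)
  have sx := split hf0 hTf (qd_stable ρ hT τ z5)
  have sy := split hf0 hTf (qd_stable ρ hT (-1 - τ) z5)
  have su := split hf0 hTf (U_stable ρ hT a a')
  have tn := dvd_part (T := T) hdeg (P := ⊤) (fun _ _ => Submodule.mem_top)
  rw [top_inf_eq] at tn
  have tA := dvd_part hdeg (fix_stable ρ hT a)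
  have tB := dvd_part hdeg (fix_stable ρ hT b)
  have tD := dvd_part hdeg (fix_stable ρ hT z5)
  have tx := dvd_part hdeg (qd_stable ρ hT τ z5)
  have ty := dvd_part hdeg (qd_stable ρ hT (-1 - τ) z5)
  have tu := dvd_part hdeg (U_stable ρ hT a a')
  have eA' : finrank F ↥(Module.End.eigenspace (ρ a) 1) = dA := eA
  have eB' : finrank F ↥(Module.End.eigenspace (ρ b) 1) = dB := eB
  have eD' : finrank F ↥(Module.End.eigenspace (ρ z5) 1) = d5 := eD
  have ex' : finrank F ↥(LinearMap.ker (Five.qd τ (ρ z5))) = 2 * m1 := ex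
  have ey' : finrank F ↥(LinearMap.ker (Five.qd (-1 - τ) (ρ z5))) = 2 * m2 := ey
  have okV' : Ok 56 dA dB d5 (2 * m1) (2 * m2) (finrank F ↥(U ρ a a')) := by
    have h := okV
    rw [finrank_V] at h
    rw [ev, ev, ev, eA', eB', eD', ex', ey'] at h
    exact h
  rw [eA'] at sA
  rw [eB'] at sB
  rw [eD'] at sD
  rw [ex'] at sx
  rw [ey'] at sy
  obtain ⟨r1, r2⟩ := rows mA mB m5 okV'
  rcases hd with rfl | rfl
  · have h := fin3 r1 r2 okV' okN okK sn sA sB sD sx sy su tn tA tB tD tx ty tu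
    omega
  · have h := fin7 r1 r2 okN okK sA sB sD tn tA tB tD tx ty tu
    apply hT0
    have h8 : finrank F ↥K = 56 := by omega
    have h9 : K = ⊤ := Submodule.eq_top_of_finrank_eq (by rw [h8, finrank_V])
    exact LinearMap.ker_eq_top.1 h9

end Cfsg.Agent.R2.T1.N6T
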